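import Cfsg.Agent.H550.L34.Rel
import Cfsg.Agent.H939.L64.Base

/-!
# S5917: an embedding `F → KK` with a given image of `ω` (helper550)
-/

set_option autoImplicit false

namespace Cfsg.Agent.H550.L34

open Cfsg.Agent.H939.L64

/-- **the embedding** -/
theorem exists_iota {F : Type} [Field F] [Finite F] {ω : F} (h : Om ω) {ζ : KK} (hζ : IsPrimitiveRoot ζ 3) :
    ∃ ι : F →+* KK, ι ω = ζ := by
  haveI hF : CharP F 2 := CharTwo.of_one_ne_zero_of_two_eq_zero one_ne_zero h.two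
  letI : Algebra (ZMod 2) F := ZMod.algebra F 2
  haveI : Algebra.IsAlgebraic (ZMod 2) F := inferInstance
  haveI hK : CharP KK 2 := inferInstance
  obtain ⟨ι⟩ : Nonempty (F →+* KK) := ⟨(IsAlgClosed.lift (R := ZMod 2) (S := F) (M := KK)).toRingHom⟩
  have h2 : (2 : KK) = 0 := CharTwo.two_eq_zero
  have e1 : (ι ω) ^ 2 = ι ω + 1 := by rw [← map_pow, h.eq, map_add, map_one]
  have e2 : ζ ^ 3 = 1 := hζ.pow_eq_one
  have e3 : ζ ≠ 1 := hζ.ne_one (by norm_num)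
  have e4 : ζ ^ 2 = ζ + 1 := by
    have h3 : (ζ - 1) * (ζ ^ 2 + ζ + 1) = 0 := by linear_combination e2
    have h4 := (mul_eq_zero.1 h3).resolve_left (sub_ne_zero.2 e3)
    linear_combination h4 - (ζ + 1) * h2
  have h5 : (ι ω - ζ) * (ι ω - ζ ^ 2) = 0 := by
    have : (ι ω - ζ) * (ι ω - ζ ^ 2) = (ι ω) ^ 2 - (ζ ^ 2 + ζ) * ι ω + ζ ^ 3 := by ring
    rw [this, e1, e2, e4]
    linear_combination (1 - ζ * ι ω) * h2
  rcases mul_eq_zero.1 h5 with h6 | h6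
  · exact ⟨ι, sub_eq_zero.1 h6⟩
  · refine ⟨(frobenius KK 2).comp ι, ?_⟩
    show (ι ω) ^ 2 = ζ
    rw [sub_eq_zero.1 h6, ← pow_mul, show 2 * 2 = 3 + 1 from rfl, pow_succ, e2, one_mul]

end Cfsg.Agent.H550.L34
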