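import Cfsg.Agent.H691.L34.Def

/-!
# S5917: explicit matrices of `3² : Q₈` in `SL₃(4)` (helper550)

`ω ^ 2 = ω + 1` in a field of characteristic two. `mD, mP` generate the extraspecial group, `mW, mJ` generate `Q₈`, `mZ` is
the involution of `Q₈` (the parity); `mE = mD⁻¹`, `mQ = mP⁻¹`, `mA = J D J⁻¹`, `mB = W A W⁻¹`.
-/

set_option autoImplicit false
set_option linter.unusedSectionVars false
set_option linter.unusedSimpArgs false
set_option linter.unusedTactic false
set_option linter.unreachableTactic false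

namespace Cfsg.Agent.H550.L34

open Matrix Cfsg.Agent.H691.L34

variable {F : Type} [Field F]

/-- a primitive cube root of unity in characteristic two -/
structure Om (ω : F) : Prop where
  two : (2 : F) = 0
  eq : ω ^ 2 = ω + 1

def mD (ω : F) : M3 F := !![1, 0, 0; 0, ω, 0; 0, 0, ω + 1]
def mE (ω : F) : M3 F := !![1, 0, 0; 0, ω + 1, 0; 0, 0, ω]
def mP : M3 F := !![0, 1, 0; 0, 0, 1; 1, 0, 0]
def mQ : M3 F := !![0, 0, 1; 1, 0, 0; 0, 1, 0]
def mW (ω : F) : M3 F := !![1, 1, 1; 1, ω, ω + 1; 1, ω + 1, ω]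
def mJ (ω : F) : M3 F := !![1, ω + 1, ω + 1; ω, ω, ω + 1; ω, ω + 1, ω]
def mZ : M3 F := !![1, 0, 0; 0, 0, 1; 0, 1, 0]
def mA (ω : F) : M3 F := !![0, ω + 1, 0; 0, 0, 1; ω, 0, 0]
def mB (ω : F) : M3 F := !![0, ω, 0; 0, 0, 1; ω + 1, 0, 0]
/-- two congruences -/
def mG : M3 F := !![0, 0, 1; 1, 0, 0; 1, 1, 0]
def mH : M3 F := !![0, 1, 1; 0, 0, 1; 1, 0, 1]

section
variable {ω : F} (h : Om ω)
include h

theorem det_D : (mD ω).det = 1 := by
  have h2 := h.two
  have h1 := h.eq
  rw [mD, det_fin_three]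
  simp
  try grind

theorem det_E : (mE ω).det = 1 := by
  have h2 := h.two
  have h1 := h.eq
  rw [mE, det_fin_three]
  simp
  try grind

theorem det_W : (mW ω).det = 1 := by
  have h2 := h.two
  have h1 := h.eq
  rw [mW, det_fin_three]
  simp
  try grind

theorem det_J : (mJ ω).det = 1 := by
  have h2 := h.two
  have h1 := h.eq
  rw [mJ, det_fin_three]
  simp
  try grind

theorem det_P : (mP : M3 F).det = 1 := by
  have h2 := h.two
  rw [mP, det_fin_three]
  simp
  try grind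

theorem det_Q : (mQ : M3 F).det = 1 := by
  have h2 := h.two
  rw [mQ, det_fin_three]
  simp
  try grind

theorem det_Z : (mZ : M3 F).det = 1 := by
  have h2 := h.two
  rw [mZ, det_fin_three]
  simp
  try grind

theorem det_G : (mG : M3 F).det = 1 := by
  have h2 := h.two
  rw [mG, det_fin_three]
  simp
  try grind

theorem det_H : (mH : M3 F).det = 1 := by
  have h2 := h.two
  rw [mH, det_fin_three]
  simp
  try grind

theorem ct_D : ct (mD ω) = mE ω := by
  have h2 := h.two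
  have h1 := h.eq
  ext i j
  fin_cases i <;> fin_cases j <;> simp [mD, mE, mP, mQ, mW, mJ, mZ, mA, mB, mG, mH, ct, Matrix.mul_apply, Fin.sum_univ_three] <;> try grind

theorem ct_E : ct (mE ω) = mD ω := by
  have h2 := h.two
  have h1 := h.eq
  ext i j
  fin_cases i <;> fin_cases j <;> simp [mD, mE, mP, mQ, mW, mJ, mZ, mA, mB, mG, mH, ct, Matrix.mul_apply, Fin.sum_univ_three] <;> try grind

theorem ct_P : ct (mP : M3 F) = mQ := by
  have h2 := h.two
  have h1 := h.eq
  ext i j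
  fin_cases i <;> fin_cases j <;> simp [mD, mE, mP, mQ, mW, mJ, mZ, mA, mB, mG, mH, ct, Matrix.mul_apply, Fin.sum_univ_three] <;> try grind

theorem ct_Q : ct (mQ : M3 F) = mP := by
  have h2 := h.two
  have h1 := h.eq
  ext i j
  fin_cases i <;> fin_cases j <;> simp [mD, mE, mP, mQ, mW, mJ, mZ, mA, mB, mG, mH, ct, Matrix.mul_apply, Fin.sum_univ_three] <;> try grind

theorem ct_Z : ct (mZ : M3 F) = mZ := by
  have h2 := h.two
  have h1 := h.eq
  ext i j
  fin_cases i <;> fin_cases j <;> simp [mD, mE, mP, mQ, mW, mJ, mZ, mA, mB, mG, mH, ct, Matrix.mul_apply, Fin.sum_univ_three] <;> try grind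

theorem DD : mD ω * ct (mD ω) = 1 := by
  have h2 := h.two
  have h1 := h.eq
  ext i j
  fin_cases i <;> fin_cases j <;> simp [mD, mE, mP, mQ, mW, mJ, mZ, mA, mB, mG, mH, ct, Matrix.mul_apply, Fin.sum_univ_three] <;> try grind

theorem PP : mP * ct (mP : M3 F) = 1 := by
  have h2 := h.two
  have h1 := h.eq
  ext i j
  fin_cases i <;> fin_cases j <;> simp [mD, mE, mP, mQ, mW, mJ, mZ, mA, mB, mG, mH, ct, Matrix.mul_apply, Fin.sum_univ_three] <;> try grind

theorem WW : mW ω * ct (mW ω) = 1 := by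
  have h2 := h.two
  have h1 := h.eq
  ext i j
  fin_cases i <;> fin_cases j <;> simp [mD, mE, mP, mQ, mW, mJ, mZ, mA, mB, mG, mH, ct, Matrix.mul_apply, Fin.sum_univ_three] <;> try grind

theorem JJ : mJ ω * ct (mJ ω) = 1 := by
  have h2 := h.two
  have h1 := h.eq
  ext i j
  fin_cases i <;> fin_cases j <;> simp [mD, mE, mP, mQ, mW, mJ, mZ, mA, mB, mG, mH, ct, Matrix.mul_apply, Fin.sum_univ_three] <;> try grind

theorem ZZ : mZ * ct (mZ : M3 F) = 1 := by
  have h2 := h.two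
  have h1 := h.eq
  ext i j
  fin_cases i <;> fin_cases j <;> simp [mD, mE, mP, mQ, mW, mJ, mZ, mA, mB, mG, mH, ct, Matrix.mul_apply, Fin.sum_univ_three] <;> try grind

theorem W2 : mW ω * mW ω = mZ := by
  have h2 := h.two
  have h1 := h.eq
  ext i j
  fin_cases i <;> fin_cases j <;> simp [mD, mE, mP, mQ, mW, mJ, mZ, mA, mB, mG, mH, ct, Matrix.mul_apply, Fin.sum_univ_three] <;> try grind

theorem J2 : mJ ω * mJ ω = mZ := by
  have h2 := h.two
  have h1 := h.eq
  ext i j
  fin_cases i <;> fin_cases j <;> simp [mD, mE, mP, mQ, mW, mJ, mZ, mA, mB, mG, mH, ct, Matrix.mul_apply, Fin.sum_univ_three] <;> try grind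

theorem Z2 : mZ * (mZ : M3 F) = 1 := by
  have h2 := h.two
  have h1 := h.eq
  ext i j
  fin_cases i <;> fin_cases j <;> simp [mD, mE, mP, mQ, mW, mJ, mZ, mA, mB, mG, mH, ct, Matrix.mul_apply, Fin.sum_univ_three] <;> try grind

theorem WJ : mW ω * mJ ω = mZ * (mJ ω * mW ω) := by
  have h2 := h.two
  have h1 := h.eq
  ext i j
  fin_cases i <;> fin_cases j <;> simp [mD, mE, mP, mQ, mW, mJ, mZ, mA, mB, mG, mH, ct, Matrix.mul_apply, Fin.sum_univ_three] <;> try grind

theorem WD : mW ω * mD ω = mP * mW ω := by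
  have h2 := h.two
  have h1 := h.eq
  ext i j
  fin_cases i <;> fin_cases j <;> simp [mD, mE, mP, mQ, mW, mJ, mZ, mA, mB, mG, mH, ct, Matrix.mul_apply, Fin.sum_univ_three] <;> try grind

theorem WP : mW ω * mP = mE ω * mW ω := by
  have h2 := h.two
  have h1 := h.eq
  ext i j
  fin_cases i <;> fin_cases j <;> simp [mD, mE, mP, mQ, mW, mJ, mZ, mA, mB, mG, mH, ct, Matrix.mul_apply, Fin.sum_univ_three] <;> try grind

theorem JD : mJ ω * mD ω = (ω + 1) • (mD ω * mP * mJ ω) := by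
  have h2 := h.two
  have h1 := h.eq
  ext i j
  fin_cases i <;> fin_cases j <;> simp [mD, mE, mP, mQ, mW, mJ, mZ, mA, mB, mG, mH, ct, Matrix.mul_apply, Fin.sum_univ_three] <;> try grind

theorem JP : mJ ω * mP = ω • (mD ω * mQ * mJ ω) := by
  have h2 := h.two
  have h1 := h.eq
  ext i j
  fin_cases i <;> fin_cases j <;> simp [mD, mE, mP, mQ, mW, mJ, mZ, mA, mB, mG, mH, ct, Matrix.mul_apply, Fin.sum_univ_three] <;> try grind

theorem cWD : mW ω * mD ω * ct (mW ω) = mP := by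
  have h2 := h.two
  have h1 := h.eq
  ext i j
  fin_cases i <;> fin_cases j <;> simp [mD, mE, mP, mQ, mW, mJ, mZ, mA, mB, mG, mH, ct, Matrix.mul_apply, Fin.sum_univ_three] <;> try grind

theorem cWP : mW ω * mP * ct (mW ω) = mE ω := by
  have h2 := h.two
  have h1 := h.eq
  ext i j
  fin_cases i <;> fin_cases j <;> simp [mD, mE, mP, mQ, mW, mJ, mZ, mA, mB, mG, mH, ct, Matrix.mul_apply, Fin.sum_univ_three] <;> try grind

theorem cZD : mZ * mD ω * ct mZ = mE ω := by
  have h2 := h.two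
  have h1 := h.eq
  ext i j
  fin_cases i <;> fin_cases j <;> simp [mD, mE, mP, mQ, mW, mJ, mZ, mA, mB, mG, mH, ct, Matrix.mul_apply, Fin.sum_univ_three] <;> try grind

theorem cZP : mZ * mP * ct (mZ : M3 F) = mQ := by
  have h2 := h.two
  have h1 := h.eq
  ext i j
  fin_cases i <;> fin_cases j <;> simp [mD, mE, mP, mQ, mW, mJ, mZ, mA, mB, mG, mH, ct, Matrix.mul_apply, Fin.sum_univ_three] <;> try grind

theorem cDD : mD ω * mD ω * ct (mD ω) = mD ω := by
  have h2 := h.two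
  have h1 := h.eq
  ext i j
  fin_cases i <;> fin_cases j <;> simp [mD, mE, mP, mQ, mW, mJ, mZ, mA, mB, mG, mH, ct, Matrix.mul_apply, Fin.sum_univ_three] <;> try grind

theorem cPD : mP * mD ω * ct mP = ω • mD ω := by
  have h2 := h.two
  have h1 := h.eq
  ext i j
  fin_cases i <;> fin_cases j <;> simp [mD, mE, mP, mQ, mW, mJ, mZ, mA, mB, mG, mH, ct, Matrix.mul_apply, Fin.sum_univ_three] <;> try grind

theorem cJD : mJ ω * mD ω * ct (mJ ω) = mA ω := by
  have h2 := h.two
  have h1 := h.eq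
  ext i j
  fin_cases i <;> fin_cases j <;> simp [mD, mE, mP, mQ, mW, mJ, mZ, mA, mB, mG, mH, ct, Matrix.mul_apply, Fin.sum_univ_three] <;> try grind

theorem cWA : mW ω * mA ω * ct (mW ω) = mB ω := by
  have h2 := h.two
  have h1 := h.eq
  ext i j
  fin_cases i <;> fin_cases j <;> simp [mD, mE, mP, mQ, mW, mJ, mZ, mA, mB, mG, mH, ct, Matrix.mul_apply, Fin.sum_univ_three] <;> try grind

theorem sum8 : mD ω + mE ω + mP + mQ + mA ω + ct (mA ω) + mB ω + ct (mB ω) = mZ + 1 := by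
  have h2 := h.two
  have h1 := h.eq
  ext i j
  fin_cases i <;> fin_cases j <;> simp [mD, mE, mP, mQ, mW, mJ, mZ, mA, mB, mG, mH, ct, Matrix.mul_apply, Fin.sum_univ_three] <;> try grind

theorem cZA : mZ * mA ω * ct mZ = ct (mA ω) := by
  have h2 := h.two
  have h1 := h.eq
  ext i j
  fin_cases i <;> fin_cases j <;> simp [mD, mE, mP, mQ, mW, mJ, mZ, mA, mB, mG, mH, ct, Matrix.mul_apply, Fin.sum_univ_three] <;> try grind

theorem cZB : mZ * mB ω * ct mZ = ct (mB ω) := by
  have h2 := h.two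
  have h1 := h.eq
  ext i j
  fin_cases i <;> fin_cases j <;> simp [mD, mE, mP, mQ, mW, mJ, mZ, mA, mB, mG, mH, ct, Matrix.mul_apply, Fin.sum_univ_three] <;> try grind

theorem hf1 : (1 : M3 F) + mD ω + mE ω = !![1, 0, 0; 0, 0, 0; 0, 0, 0] := by
  have h2 := h.two
  have h1 := h.eq
  ext i j
  fin_cases i <;> fin_cases j <;> simp [mD, mE, mP, mQ, mW, mJ, mZ, mA, mB, mG, mH, ct, Matrix.mul_apply, Fin.sum_univ_three] <;> try grind

theorem hf2 : mD ω + mE ω = !![0, 0, 0; 0, 1, 0; 0, 0, 1] := by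
  have h2 := h.two
  have h1 := h.eq
  ext i j
  fin_cases i <;> fin_cases j <;> simp [mD, mE, mP, mQ, mW, mJ, mZ, mA, mB, mG, mH, ct, Matrix.mul_apply, Fin.sum_univ_three] <;> try grind

theorem hG : mG * (1 + mD ω + mE ω) * ct mG = mZ + 1 := by
  have h2 := h.two
  have h1 := h.eq
  rw [hf1 h]
  ext i j
  fin_cases i <;> fin_cases j <;> simp [mG, mZ, ct, Matrix.mul_apply, Fin.sum_univ_three] <;> try grind

theorem hH : mH * (mD ω + mE ω) * ct mH = mD ω + mE ω + mP + mQ := by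
  have h2 := h.two
  have h1 := h.eq
  rw [hf2 h]
  ext i j
  fin_cases i <;> fin_cases j <;> simp [mH, mP, mQ, ct, Matrix.mul_apply, Fin.sum_univ_three] <;> try grind

end

end Cfsg.Agent.H550.L34
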