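import Cfsg.Agent.H550.L34.Mat

/-!
# S5917: the group `3² : Q₈` of `PSL₃(4)` by explicit elements (helper550)
-/

set_option autoImplicit false

namespace Cfsg.Agent.H550.L34

open Matrix Cfsg.Agent.H691.L34

variable {F : Type} [Field F] {ω : F} (h : Om ω)

/-- `diag(1, ω, ω²)` -/
def gD : G3 F := ⟨mD ω, det_D h⟩
/-- the cyclic permutation -/
def gP : G3 F := ⟨mP, det_P h⟩
def gE : G3 F := ⟨mE ω, det_E h⟩
def gQ : G3 F := ⟨mQ, det_Q h⟩
/-- the first generator of `Q₈` -/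
def gW : G3 F := ⟨mW ω, det_W h⟩
/-- the second generator of `Q₈` -/
def gJ : G3 F := ⟨mJ ω, det_J h⟩
/-- the involution -/
def gZ : G3 F := ⟨mZ, det_Z h⟩

include h in
theorem om3 : ω ^ 3 = 1 := by
  have h2 := h.two
  have h1 := h.eq
  grind

include h in
theorem om_ne : ω ≠ 1 := by
  intro e
  have h2 := h.two
  have h1 := h.eq
  rw [e] at h1
  have : (1 : F) = 0 := by grind
  exact one_ne_zero this

/-- scalar -/
def gS : G3 F := ⟨ω • (1 : M3 F), by
  rw [det_smul, det_one, mul_one, Fintype.card_fin, om3 h]⟩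

theorem gS_center : gS h ∈ Subgroup.center (G3 F) := by
  rw [Subgroup.mem_center_iff]
  intro g
  apply Subtype.ext
  show g.1 * (ω • (1 : M3 F)) = (ω • (1 : M3 F)) * g.1
  rw [Matrix.mul_smul, Matrix.smul_mul, mul_one, one_mul]

include h in
theorem om_sq : (ω + 1) = ω ^ 2 := h.eq.symm

theorem W_D : gW h * gD h = gP h * gW h := Subtype.ext (WD h)

theorem D_inv : (gD h)⁻¹ = gE h := by
  apply inv_eq_of_mul_eq_one_right
  apply Subtype.ext
  show mD ω * mE ω = 1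
  rw [← ct_D h, DD h]

theorem P_inv : (gP h)⁻¹ = gQ h := by
  apply inv_eq_of_mul_eq_one_right
  apply Subtype.ext
  show mP * mQ = (1 : M3 F)
  rw [← ct_P h, PP h]

theorem W_P' : gW h * gP h = (gD h)⁻¹ * gW h := by
  rw [D_inv]
  exact Subtype.ext (WP h)

theorem J_D : gJ h * gD h = gS h ^ 2 * (gD h * gP h * gJ h) := by
  apply Subtype.ext
  show mJ ω * mD ω = ((gS h) ^ 2 : G3 F).1 * (mD ω * mP * mJ ω)
  have e : ((gS h) ^ 2 : G3 F).1 = (ω ^ 2) • (1 : M3 F) := by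
    rw [pow_two]
    show (ω • (1 : M3 F)) * (ω • (1 : M3 F)) = _
    rw [Matrix.smul_mul, one_mul, smul_smul, pow_two]
  rw [e, smul_mul, one_mul, JD h, om_sq h]

theorem J_P : gJ h * gP h = gS h * (gD h * (gP h)⁻¹ * gJ h) := by
  rw [P_inv]
  apply Subtype.ext
  show mJ ω * mP = (ω • (1 : M3 F)) * (mD ω * mQ * mJ ω)
  rw [smul_mul, one_mul, JP h]

theorem W_W : gW h * gW h = gZ h := Subtype.ext (W2 h)

theorem J_J : gJ h * gJ h = gZ h := Subtype.ext (J2 h)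

theorem Z_Z : gZ h * gZ h = 1 := Subtype.ext (Z2 h)

theorem W_J : gW h * gJ h = gZ h * (gJ h * gW h) := Subtype.ext (WJ h)

theorem D_3 : gD h ^ 3 = 1 := by
  have h2 := h.two
  have h1 := h.eq
  apply Subtype.ext
  rw [pow_succ, pow_two]
  show mD ω * mD ω * mD ω = 1
  ext i j
  fin_cases i <;> fin_cases j <;> simp [mD, Matrix.mul_apply, Fin.sum_univ_three] <;> grind

theorem P_3 : gP h ^ 3 = 1 := by
  apply Subtype.ext
  rw [pow_succ, pow_two]
  show mP * mP * mP = (1 : M3 F)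
  ext i j
  fin_cases i <;> fin_cases j <;> simp [mP, Matrix.mul_apply, Fin.sum_univ_three]

theorem P_D : gP h * gD h = gS h * (gD h * gP h) := by
  have h2 := h.two
  have h1 := h.eq
  apply Subtype.ext
  show mP * mD ω = (ω • (1 : M3 F)) * (mD ω * mP)
  rw [smul_mul, one_mul]
  ext i j
  fin_cases i <;> fin_cases j <;> simp [mP, mD, Matrix.mul_apply, Fin.sum_univ_three] <;> grind

/-- **the relations of `3² : Q₈` in every quotient by the centre** (the hypotheses of `frameQ`) -/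
theorem rels {G : Type*} [Group G] (f : G3 F →* G) (hf : ∀ c ∈ Subgroup.center (G3 F), f c = 1) :
    f (gW h) * f (gD h) * (f (gW h))⁻¹ = f (gP h) ∧ f (gW h) * f (gP h) * (f (gW h))⁻¹ = (f (gD h))⁻¹ ∧
    f (gJ h) * f (gD h) * (f (gJ h))⁻¹ = f (gD h) * f (gP h) ∧
    f (gJ h) * f (gP h) * (f (gJ h))⁻¹ = f (gD h) * (f (gP h))⁻¹ ∧
    f (gW h) ^ 4 = 1 ∧ f (gJ h) ^ 2 = f (gW h) ^ 2 ∧ f (gW h) * f (gJ h) * (f (gW h))⁻¹ = (f (gJ h))⁻¹ ∧
    f (gD h) ^ 3 = 1 ∧ f (gP h) ^ 3 = 1 ∧ Commute (f (gD h)) (f (gP h)) := by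
  have hs : f (gS h) = 1 := hf _ (gS_center h)
  have hWW : f (gW h) * f (gW h) = f (gZ h) := by rw [← map_mul, W_W]
  have hJJ : f (gJ h) * f (gJ h) = f (gZ h) := by rw [← map_mul, J_J]
  have hZZ : f (gZ h) * f (gZ h) = 1 := by rw [← map_mul, Z_Z, map_one]
  refine ⟨?_, ?_, ?_, ?_, ?_, ?_, ?_, ?_, ?_, ?_⟩
  · rw [← map_mul, W_D, map_mul, mul_inv_cancel_right]
  · rw [← map_mul, W_P', map_mul, map_inv, mul_inv_cancel_right]
  · rw [← map_mul, J_D, map_mul, map_pow, hs, one_pow, one_mul, map_mul, map_mul, mul_inv_cancel_right]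
  · rw [← map_mul, J_P, map_mul, hs, one_mul, map_mul, map_mul, map_inv, mul_inv_cancel_right]
  · rw [show (4 : ℕ) = 2 * 2 from rfl, pow_mul, pow_two (f (gW h)), hWW, pow_two, hZZ]
  · rw [pow_two, pow_two, hWW, hJJ]
  · rw [← map_mul, W_J, map_mul, map_mul, ← mul_assoc, mul_inv_cancel_right, eq_inv_iff_mul_eq_one, mul_assoc, hJJ, hZZ]
  · rw [← map_pow, D_3, map_one]
  · rw [← map_pow, P_3, map_one]
  · show f (gD h) * f (gP h) = f (gP h) * f (gD h)
    rw [← map_mul, ← map_mul, P_D, map_mul (f := f), map_mul (f := f), hs, one_mul, ← map_mul]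

end Cfsg.Agent.H550.L34
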